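import Cfsg.Agent.RealChar.Indicator
import Cfsg.Agent.OddChar.Twist
import Cfsg.Agent.Cores.Fitting

/-!
# The subrepresentation of `End V` spanned by a normal subgroup, and Galois products
-/

set_option autoImplicit false
set_option linter.style.haveILetI false

open scoped ComplexConjugate Matrix

namespace Cfsg.Agent.RealChar

open Cfsg.Agent.Char

universe u

variable {G : Type u} [Group G]

/-- Traces of a representation against an invariant idempotent form a character. -/
theorem isCharacter_trace_comp_proj [Finite G] {V : Type*} [AddCommGroup V] [Module ℂ V]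
    [FiniteDimensional ℂ V] (ρ : Representation ℂ G V) (E : Module.End ℂ V) (hE : E * E = E)
    (hcomm : ∀ g, ρ g * E = E * ρ g) :
    IsCharacter G fun g => LinearMap.trace ℂ V (ρ g * E) := by
  let p : Subrepresentation ρ := ⟨LinearMap.range E, fun g v hv => by
    obtain ⟨w, rfl⟩ := hv
    exact ⟨ρ g w, (LinearMap.congr_fun (hcomm g) w).symm⟩⟩
  have h : (fun g => LinearMap.trace ℂ V (ρ g * E)) = p.toRepresentation.character := by
    funext g
    have hmem : ∀ x, (ρ g * E) x ∈ LinearMap.range E := fun x =>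
      ⟨ρ g x, (LinearMap.congr_fun (hcomm g) x).symm⟩
    rw [← LinearMap.trace_restrict_eq_of_forall_mem (LinearMap.range E) (ρ g * E) hmem]
    show LinearMap.trace ℂ _ ((ρ g * E).restrict fun x _ => hmem x) = LinearMap.trace ℂ _ _
    congr 1
    refine LinearMap.ext fun x => Subtype.ext ?_
    obtain ⟨w, hw⟩ := x.2
    show ρ g (E (x : V)) = ρ g (x : V)
    rw [← hw]
    exact congrArg (ρ g) (LinearMap.congr_fun hE w)
  rw [h]
  exact isCharacter_character _

theorem classInner_nat_of_isCharacter [Fintype G] {f h : G → ℂ} (hf : IsCharacter G f)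
    (hh : IsCharacter G h) : ∃ n : ℕ, classInner f h = n := by
  obtain ⟨m, hm, -⟩ := isCharacter_exists_coeff hh
  choose k hk using isCharacter_classInner_nat hf
  refine ⟨∑ ψ : IrrCharacter G, m ψ * k ψ, ?_⟩
  rw [hm, classInner_sum_right, Nat.cast_sum]
  refine Finset.sum_congr rfl fun ψ _ => ?_
  rw [← Nat.cast_smul_eq_nsmul ℂ, classInner_smul_right, Complex.conj_natCast, hk]
  push_cast; ring

theorem classInner_self_pos [Fintype G] {f : G → ℂ} (hf : IsCharacter G f) (h1 : f 1 ≠ 0) :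
    ∃ n : ℕ, 0 < n ∧ classInner f f = n := by
  obtain ⟨n, hn⟩ := classInner_nat_of_isCharacter hf hf
  refine ⟨n, Nat.pos_of_ne_zero fun h0 => h1 ?_, hn⟩
  obtain ⟨m, hm, hm'⟩ := isCharacter_exists_coeff hf
  have hsq : classInner f f = ((∑ ψ : IrrCharacter G, m ψ ^ 2 : ℕ) : ℂ) := by
    rw [classInner_eq_sum_mul_conj (isCharacter_isClassFunction hf), Nat.cast_sum]
    exact Finset.sum_congr rfl fun ψ _ => by rw [hm', Complex.conj_natCast]; push_cast; ring
  rw [hn, h0] at hsq
  have hz := Finset.sum_eq_zero_iff.mp (Nat.cast_injective hsq.symm)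
  rw [hm]
  simp only [Finset.sum_apply, Pi.smul_apply]
  refine Finset.sum_eq_zero fun ψ hψ => ?_
  rw [(pow_eq_zero_iff two_ne_zero).mp (hz ψ hψ), zero_smul]

/-- If the commutator sums of a normal noncentral subgroup are stable under a power map prime to
the group order, then a character times its twist is reducible. -/
theorem not_irr_mul_twist [Finite G] (χ : IrrCharacter G) (k : ℕ)
    (hk : Nat.Coprime k (Nat.card G)) (A : Subgroup G) [hA : A.Normal]
    (hfaith : ∀ g : G, (χ : G → ℂ) g = (χ : G → ℂ) 1 → g = 1)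
    (hnc : ¬ A ≤ Subgroup.center G)
    (hinv : ∀ g : G, ∑ᶠ a : A, (χ : G → ℂ) (g ^ k * a * (g ^ k)⁻¹ * (a : G)⁻¹) =
      ∑ᶠ a : A, (χ : G → ℂ) (g * a * g⁻¹ * (a : G)⁻¹)) :
    ¬ IsIrrCharacter G (fun g => (χ : G → ℂ) g * (χ : G → ℂ) (g ^ k)) := by
  classical
  letI := Fintype.ofFinite G
  letI := Fintype.ofFinite A
  intro hirr
  obtain ⟨n, ρ, hρ, hχρ⟩ := χ.2
  haveI := hρ
  let M : G →* Matrix (Fin n) (Fin n) ℂ :=
    (LinearMap.toMatrixAlgEquiv' (R := ℂ) (n := Fin n)).toMulEquiv.toMonoidHom.comp ρ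
  have hM : ∀ g, (M g).trace = (χ : G → ℂ) g := by
    intro g
    rw [← hχρ]
    show Matrix.trace (LinearMap.toMatrix' (ρ g)) = LinearMap.trace ℂ _ (ρ g)
    rw [LinearMap.trace_eq_matrix_trace ℂ (Pi.basisFun ℂ (Fin n)),
      LinearMap.toMatrix_eq_toMatrix']
  set d : ℂ := (χ : G → ℂ) 1 with hd
  have hd0 : d ≠ 0 := irr_one_ne_zero χ.2
  have hdn : d = (Module.finrank ℂ (Fin n → ℂ) : ℂ) := by rw [hd, ← hχρ]; exact ρ.char_one
  -- the Schur element
  set c : ℂ := (∑ a : A, conj ((χ : G → ℂ) a) * (χ : G → ℂ) a) / d with hc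
  have hzA : ∑ a : A, conj ((χ : G → ℂ) a) • M a = c • 1 := by
    have hf : IsClassFunction G (fun g => if g ∈ A then conj ((χ : G → ℂ) g) else 0) := by
      intro g h
      show (if h * g * h⁻¹ ∈ A then _ else _) = (if g ∈ A then _ else _)
      rw [irr_isClassFunction χ.2 g h]
      by_cases hg : g ∈ A
      · rw [if_pos (hA.conj_mem g hg h), if_pos hg]
      · rw [if_neg hg, if_neg fun h' => hg (by simpa [mul_assoc] using hA.conj_mem _ h' h⁻¹)]
    have h := sum_smul_eq_smul_id ρ hf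
    have hsub : ∀ {W : Type} [AddCommMonoid W] (F : G → W), (∀ g, g ∉ A → F g = 0) →
        ∑ g : G, F g = ∑ a : A, F a := by
      intro W _ F hF
      rw [← Finset.sum_subtype (Finset.univ.filter (· ∈ A)) (fun g => by simp) F]
      refine (Finset.sum_subset (Finset.subset_univ _) fun g _ hg => hF g ?_).symm
      simpa using hg
    rw [hsub _ (fun g hg => by rw [if_neg hg, zero_smul]),
      hsub _ (fun g hg => by rw [if_neg hg, zero_mul])] at h
    simp only [SetLike.coe_mem, if_true] at h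
    rw [hχρ, ← hdn] at h
    have h2 := congrArg (LinearMap.toMatrixAlgEquiv' (R := ℂ) (n := Fin n)) h
    rw [map_sum, map_smul, ← Module.End.one_eq_id, map_one] at h2
    simp only [map_smul] at h2
    exact h2
  have hconv : ∀ b : A, ∑ a : A, (χ : G → ℂ) ((b : G) * (a : G)⁻¹) • M a = c • M b := by
    intro b
    rw [← Fintype.sum_equiv (Equiv.mulRight b)
      (fun a : A => (χ : G → ℂ) ((b : G) * ((a * b : A) : G)⁻¹) • M ((a * b : A) : G))
      (fun a : A => (χ : G → ℂ) ((b : G) * (a : G)⁻¹) • M a) (fun a => rfl)]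
    have : ∀ a : A, (χ : G → ℂ) ((b : G) * ((a * b : A) : G)⁻¹) • M ((a * b : A) : G) =
        (conj ((χ : G → ℂ) a) • M a) * M b := by
      intro a
      rw [Subgroup.coe_mul, mul_inv_rev, mul_inv_cancel_left, irr_inv χ.2, map_mul,
        Matrix.smul_mul]
    rw [Finset.sum_congr rfl fun a _ => this a, ← Finset.sum_mul, hzA, Matrix.smul_mul,
      Matrix.one_mul]
  have hMinv : ∀ g : G, M g * M g⁻¹ = 1 ∧ M g⁻¹ * M g = 1 := fun g => by
    constructor <;> rw [← map_mul] <;> simp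
  -- the adjoint representation and the projections
  let T : Representation ℂ G (Matrix (Fin n) (Fin n) ℂ) :=
    { toFun := fun g => sandwich (M g) (M g⁻¹)
      map_one' := LinearMap.ext fun X => by simp [sandwich]
      map_mul' := fun g h => LinearMap.ext fun X => by
        simp [sandwich, mul_inv_rev, Matrix.mul_assoc] }
  let e : A → Module.End ℂ (Matrix (Fin n) (Fin n) ℂ) := fun a =>
    ((Matrix.traceLinearMap (Fin n) ℂ ℂ).comp (sandwich 1 (M (a : G)⁻¹))).smulRight (M a)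
  have he : ∀ (a : A) X, e a X = (X * M (a : G)⁻¹).trace • M a := fun a X => by
    simp [e, sandwich]
  let E : Module.End ℂ (Matrix (Fin n) (Fin n) ℂ) := c⁻¹ • ∑ a : A, e a
  have hc0 : c ≠ 0 := by
    refine div_ne_zero ?_ hd0
    intro h0
    have h' : ((∑ a : A, Complex.normSq ((χ : G → ℂ) a) : ℝ) : ℂ) = 0 := by
      rw [← h0]; push_cast
      exact Finset.sum_congr rfl fun a _ => by rw [Complex.normSq_eq_conj_mul_self]
    have h1 := (Finset.sum_eq_zero_iff_of_nonneg fun a _ => Complex.normSq_nonneg _).mp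
      (by exact_mod_cast h') 1 (Finset.mem_univ (1 : A))
    exact hd0 (Complex.normSq_eq_zero.mp h1)
  have hEapply : ∀ X, E X = c⁻¹ • ∑ a : A, (X * M (a : G)⁻¹).trace • M a := fun X => by
    simp [E, he]
  have hEM : ∀ b : A, E (M b) = M b := by
    intro b
    rw [hEapply, Finset.sum_congr rfl fun a _ => by
      rw [← map_mul, hM], hconv, smul_smul, inv_mul_cancel₀ hc0, one_smul]
  have hE1 : E 1 = 1 := by simpa using hEM 1
  have hEE : E * E = E := LinearMap.ext fun X => by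
    show E (E X) = E X
    conv_lhs => rw [hEapply X]
    rw [map_smul, map_sum, hEapply X]
    congr 1
    exact Finset.sum_congr rfl fun a _ => by rw [map_smul, hEM]
  have hET : ∀ g, T g * E = E * T g := fun g => LinearMap.ext fun X => by
    show sandwich (M g) (M g⁻¹) (E X) = E (sandwich (M g) (M g⁻¹) X)
    rw [hEapply, hEapply, map_smul, map_sum]
    congr 1
    refine Fintype.sum_equiv (MulAut.conjNormal g : MulAut A).toEquiv _ _ fun a => ?_
    show sandwich (M g) (M g⁻¹) ((X * M (a : G)⁻¹).trace • M a) =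
      (sandwich (M g) (M g⁻¹) X * M (g * a * g⁻¹)⁻¹).trace • M (g * a * g⁻¹)
    rw [map_smul]
    show _ • (M g * M a * M g⁻¹) = ((M g * X * M g⁻¹) * M (g * a * g⁻¹)⁻¹).trace • _
    congr 1
    · rw [← hMinv g |>.2 |> fun h => (by rw [h] : (M g⁻¹ * M g) * (X * M (a : G)⁻¹) = 1 * (X * M (a : G)⁻¹))
        |> fun h => h.trans (Matrix.one_mul _), Matrix.mul_assoc (M g⁻¹), Matrix.trace_mul_comm]
      simp only [mul_inv_rev, inv_inv, map_mul, Matrix.mul_assoc]
      congr 2
      rw [← Matrix.mul_assoc (M g⁻¹), (hMinv g).2, Matrix.one_mul]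
    · rw [map_mul, map_mul]
  let D : Module.End ℂ (Matrix (Fin n) (Fin n) ℂ) :=
    d⁻¹ • (Matrix.traceLinearMap (Fin n) ℂ ℂ).smulRight (1 : Matrix (Fin n) (Fin n) ℂ)
  have hD : ∀ X, D X = d⁻¹ • X.trace • (1 : Matrix (Fin n) (Fin n) ℂ) := fun X => rfl
  have htr1 : (1 : Matrix (Fin n) (Fin n) ℂ).trace = d := by rw [← map_one M, hM]
  have hDD : D * D = D := LinearMap.ext fun X => by
    show D (D X) = D X
    rw [hD, hD, Matrix.trace_smul, Matrix.trace_smul, htr1]
    simp only [smul_smul, smul_eq_mul]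
    congr 1
    field_simp
  have hDT : ∀ g, T g * D = D * T g := fun g => LinearMap.ext fun X => by
    show sandwich (M g) (M g⁻¹) (D X) = D (sandwich (M g) (M g⁻¹) X)
    rw [hD, hD, map_smul, map_smul]
    show d⁻¹ • X.trace • (M g * 1 * M g⁻¹) = d⁻¹ • (M g * X * M g⁻¹).trace • _
    rw [Matrix.mul_one, (hMinv g).1, Matrix.trace_mul_cycle, (hMinv g).2, Matrix.one_mul]
  have hED : E * D = D := LinearMap.ext fun X => by
    show E (D X) = D X
    rw [hD, map_smul, map_smul, hE1]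
  have htrE : ∀ X, (E X).trace = X.trace := by
    intro X
    rw [hEapply, Matrix.trace_smul, Matrix.trace_sum]
    simp only [Matrix.trace_smul, hM, smul_eq_mul]
    have h1 : ∑ a : A, (X * M (a : G)⁻¹).trace * (χ : G → ℂ) a =
        (X * ∑ a : A, conj ((χ : G → ℂ) a) • M a).trace := by
      rw [Finset.mul_sum, Matrix.trace_sum]
      refine Fintype.sum_equiv (Equiv.inv A) _ _ fun a => ?_
      show (X * M (a : G)⁻¹).trace * _ = (X * conj ((χ : G → ℂ) (a : G)⁻¹) • M (a : G)⁻¹).trace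
      rw [Matrix.mul_smul, Matrix.trace_smul, irr_inv χ.2, Complex.conj_conj, smul_eq_mul,
        mul_comm]
    rw [h1, hzA, Matrix.mul_smul, Matrix.mul_one, Matrix.trace_smul, smul_eq_mul,
      inv_mul_cancel_left₀ hc0]
  have hDE : D * E = D := LinearMap.ext fun X => by
    show D (E X) = D X
    rw [hD, hD, htrE]
  have hF : (E - D) * (E - D) = E - D := by
    rw [mul_sub, sub_mul, sub_mul, hEE, hDD, hED, hDE]; abel
  have hF' : (1 - E) * (1 - E) = 1 - E := by
    simp only [mul_sub, sub_mul, mul_one, one_mul, hEE]; abel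
  have hFT : ∀ g, T g * (E - D) = (E - D) * T g := fun g => by rw [mul_sub, sub_mul, hET, hDT]
  have hF'T : ∀ g, T g * (1 - E) = (1 - E) * T g := fun g => by
    rw [mul_sub, sub_mul, hET, mul_one, one_mul]
  -- the three characters
  set θ : G → ℂ := fun g => LinearMap.trace ℂ _ (T g * (E - D)) with hθ
  set R : G → ℂ := fun g => LinearMap.trace ℂ _ (T g * (1 - E)) with hR
  have hθc : IsCharacter G θ := isCharacter_trace_comp_proj T _ hF hFT
  have hRc : IsCharacter G R := isCharacter_trace_comp_proj T _ hF' hF'T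
  have htrD : ∀ g, LinearMap.trace ℂ _ (T g * D) = 1 := by
    intro g
    have h1 : T g * D = d⁻¹ • (Matrix.traceLinearMap (Fin n) ℂ ℂ).smulRight
        (1 : Matrix (Fin n) (Fin n) ℂ) := LinearMap.ext fun X => by
      show sandwich (M g) (M g⁻¹) (D X) = _
      rw [hD, map_smul, map_smul]
      show d⁻¹ • X.trace • (M g * 1 * M g⁻¹) = d⁻¹ • X.trace • (1 : Matrix (Fin n) (Fin n) ℂ)
      rw [Matrix.mul_one, (hMinv g).1]
    rw [h1, map_smul, LinearMap.trace_smulRight]
    show d⁻¹ * (1 : Matrix (Fin n) (Fin n) ℂ).trace = 1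
    rw [htr1, inv_mul_cancel₀ hd0]
  have htrTE : ∀ g, LinearMap.trace ℂ _ (T g * E) =
      c⁻¹ * ∑ a : A, (χ : G → ℂ) (g * a * g⁻¹ * (a : G)⁻¹) := by
    intro g
    have h1 : T g * E = c⁻¹ • ∑ a : A,
        ((Matrix.traceLinearMap (Fin n) ℂ ℂ).comp (sandwich 1 (M (a : G)⁻¹))).smulRight
          (M (g * a * g⁻¹)) := LinearMap.ext fun X => by
      show sandwich (M g) (M g⁻¹) (E X) = _
      rw [hEapply, map_smul, map_sum]
      simp [sandwich, map_mul]
    rw [h1, map_smul, map_sum, smul_eq_mul]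
    congr 1
    refine Finset.sum_congr rfl fun a _ => ?_
    rw [LinearMap.trace_smulRight]
    show (1 * M (g * a * g⁻¹) * M (a : G)⁻¹).trace = _
    rw [Matrix.one_mul, ← map_mul, hM]
  have hsplit : ∀ g, (χ : G → ℂ) g * conj ((χ : G → ℂ) g) = 1 + θ g + R g := by
    intro g
    have h1 : LinearMap.trace ℂ _ (T g) = 1 + θ g + R g := by
      rw [hθ, hR]
      simp only [mul_sub, map_sub, htrD, mul_one]
      ring
    rw [← h1]
    show _ = LinearMap.trace ℂ _ (sandwich (M g) (M g⁻¹))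
    rw [trace_sandwich, hM, hM, irr_inv χ.2]
  have hθinv : ∀ g, θ (g ^ k) = θ g := by
    intro g
    simp only [hθ, mul_sub, map_sub, htrD, htrTE]
    rw [← finsum_eq_sum_of_fintype, hinv g, finsum_eq_sum_of_fintype]
  have hθ1 : θ 1 ≠ 0 := by
    intro h0
    have h1 : (Fintype.card A : ℂ) * d = c := by
      simp only [hθ, mul_sub, map_sub, htrD, htrTE, one_mul, inv_one, mul_one, mul_inv_cancel,
        Finset.sum_const, Finset.card_univ, nsmul_eq_mul] at h0
      field_simp at h0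
      linear_combination h0
    -- every element of `A` is then scalar
    have hle : ∀ a : A, ‖(χ : G → ℂ) a‖ ≤ d.re := fun a =>
      isCharacter_norm_le (isCharacter_of_irr χ.2) a
    have hdre : d = (d.re : ℂ) := isCharacter_one_eq (isCharacter_of_irr χ.2)
    have hsum : ∑ a : A, ‖(χ : G → ℂ) a‖ ^ 2 = ∑ _a : A, d.re ^ 2 := by
      have h2 : ((∑ a : A, ‖(χ : G → ℂ) a‖ ^ 2 : ℝ) : ℂ) =
          ((∑ _a : A, d.re ^ 2 : ℝ) : ℂ) := by
        rw [Finset.sum_const, Finset.card_univ, nsmul_eq_mul]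
        push_cast
        rw [← hdre, pow_two d, ← mul_assoc, h1, hc, div_mul_cancel₀ _ hd0]
        exact Finset.sum_congr rfl fun a _ => (Complex.conj_mul' _).symm
      exact_mod_cast h2
    have heq := (Finset.sum_eq_sum_iff_of_le fun a _ =>
      pow_le_pow_left₀ (norm_nonneg _) (hle a) 2).mp hsum
    apply hnc
    intro a ha
    have hd_pos : (0 : ℝ) ≤ d.re := (norm_nonneg _).trans (hle 1)
    obtain ⟨ω, hω, hωx⟩ := isCharacter_mul_of_norm_eq (isCharacter_of_irr χ.2)
      ((pow_left_inj₀ (norm_nonneg _) hd_pos two_ne_zero).mp (heq ⟨a, ha⟩ (Finset.mem_univ _)))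
    rw [Subgroup.mem_center_iff]
    intro x
    have hω1 : ω * conj ω = 1 := by
      have hn : ‖(χ : G → ℂ) a‖ = d.re :=
        (pow_left_inj₀ (norm_nonneg _) hd_pos two_ne_zero).mp (heq ⟨a, ha⟩ (Finset.mem_univ _))
      rw [hω, norm_mul, ← hd] at hn
      have hdn' : ‖d‖ = d.re := by rw [hdre]; simp [hd_pos]
      have hdne : d.re ≠ 0 := fun h0 => hd0 (by rw [hdre, h0]; simp)
      rw [hdn'] at hn
      rw [Complex.mul_conj', mul_left_eq_self₀.mp hn |>.resolve_right hdne]
      simp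
    have h3 : (χ : G → ℂ) (a * (x * a⁻¹ * x⁻¹)) = (χ : G → ℂ) 1 := by
      rw [(hωx _).1, irr_isClassFunction χ.2, irr_inv χ.2, hω, map_mul, ← hd,
        show conj d = d by rw [hdre]; simp, ← mul_assoc, hω1, one_mul]
    have h4 := hfaith _ h3
    calc x * a = (a * (x * a⁻¹ * x⁻¹))⁻¹ * a * x := by group
      _ = a * x := by rw [h4]; group
  -- the inner products
  have htriv : IsCharacter G (fun _ : G => (1 : ℂ)) := isCharacter_const_one
  have hRk : IsCharacter G fun g => R (g ^ k) := OddChar.isCharacter_twist hRc hk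
  have hlhs : classInner (fun g => (1 : ℂ) + θ g + R g) (fun g => (1 : ℂ) + θ g + R (g ^ k)) = 1 := by
    refine Eq.trans ?_ (classInner_irr_self hirr)
    unfold classInner
    congr 1
    refine Finset.sum_congr rfl fun g _ => ?_
    simp only []
    rw [← hsplit g]
    nth_rw 1 [← hθinv g]
    rw [← hsplit (g ^ k)]
    simp only [map_mul, Complex.conj_conj]
    ring
  let one : G → ℂ := fun _ => 1
  have hexp : classInner (fun g => (1 : ℂ) + θ g + R g) (fun g => (1 : ℂ) + θ g + R (g ^ k)) =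
      classInner one one + classInner θ θ + (classInner one θ + classInner θ one +
      classInner one (fun g => R (g ^ k)) + classInner θ (fun g => R (g ^ k)) +
      classInner R one + classInner R θ + classInner R (fun g => R (g ^ k))) := by
    have e1 : (fun g => (1 : ℂ) + θ g + R g) = one + θ + R := rfl
    have e2 : (fun g => (1 : ℂ) + θ g + R (g ^ k)) = one + θ + (fun g => R (g ^ k)) := rfl
    rw [e1, e2]
    simp only [classInner_add_left, classInner_add_right]
    ring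
  rw [hexp] at hlhs
  obtain ⟨a1, h1⟩ := classInner_nat_of_isCharacter htriv hθc
  obtain ⟨a2, h2⟩ := classInner_nat_of_isCharacter hθc htriv
  obtain ⟨a3, h3⟩ := classInner_nat_of_isCharacter htriv hRk
  obtain ⟨a4, h4⟩ := classInner_nat_of_isCharacter hθc hRk
  obtain ⟨a5, h5⟩ := classInner_nat_of_isCharacter hRc htriv
  obtain ⟨a6, h6⟩ := classInner_nat_of_isCharacter hRc hθc
  obtain ⟨a7, h7⟩ := classInner_nat_of_isCharacter hRc hRk
  obtain ⟨a8, hpos, h8⟩ := classInner_self_pos hθc hθ1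
  have h11 : classInner one one = 1 := classInner_irr_self isIrrCharacter_const_one
  rw [h11, h1, h2, h3, h4, h5, h6, h7, h8] at hlhs
  have : 1 + a8 + (a1 + a2 + a3 + a4 + a5 + a6 + a7) = 1 := by exact_mod_cast hlhs
  omega

/-- A faithful character whose product with a Galois conjugate is irreducible has central
Fitting subgroup. -/
theorem fitting_eq_center [Finite G] (χ : IrrCharacter G)
    (hfaith : ∀ g : G, (χ : G → ℂ) g = (χ : G → ℂ) 1 → g = 1) (k : ℕ)
    (hk : Nat.Coprime k (Nat.card G))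
    (hirr : IsIrrCharacter G fun g => (χ : G → ℂ) g * (χ : G → ℂ) (g ^ k)) :
    Cfsg.fittingSubgroup G = Subgroup.center G := by
  classical
  letI := Fintype.ofFinite G
  set Z := Subgroup.center G with hZ
  set F := Cfsg.fittingSubgroup G with hF
  letI hZcomm : CommGroup Z := { (inferInstance : Group Z) with
    mul_comm := fun a b => Subtype.ext (Subgroup.mem_center_iff.mp b.2 a) }
  have hZnil : Group.IsNilpotent Z := CommGroup.isNilpotent
  have hZF : Z ≤ F := Cores.le_fittingSubgroup inferInstance hZnil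
  obtain ⟨m, hm⟩ : ∃ m : ℕ, k * m ≡ 1 [MOD Nat.card G]  := ⟨k ^ (Nat.totient (Nat.card G) - 1), by
    rw [← pow_succ', Nat.sub_add_cancel (Nat.totient_pos.mpr Nat.card_pos : 0 < _)]
    exact Nat.ModEq.pow_totient hk⟩
  have hpow : ∀ g : G, (g ^ k) ^ m = g := fun g => by
    rw [← pow_mul]
    conv_rhs => rw [← pow_one g]
    exact pow_eq_pow_iff_modEq.mpr (hm.of_dvd (orderOf_dvd_natCard g))
  -- abelian normal subgroups are central
  have hab : ∀ B : Subgroup G, B.Normal → (∀ a ∈ B, ∀ b ∈ B, a * b = b * a) → B ≤ Z := by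
    intro B hB hcomm
    by_contra hBZ
    letI := Fintype.ofFinite B
    refine not_irr_mul_twist χ k hk B hfaith hBZ (fun g => ?_) hirr
    have hmem : ∀ (x : G) (a : B), x * a * x⁻¹ * (a : G)⁻¹ ∈ B := fun x a =>
      B.mul_mem (hB.conj_mem a a.2 x) (B.inv_mem a.2)
    let ψ : G → (B →* B) := fun x => MonoidHom.mk' (fun a => ⟨_, hmem x a⟩) fun a b => Subtype.ext (by
      push_cast
      have h1 : Commute (x * (b : G) * x⁻¹ * (b : G)⁻¹) (a : G)⁻¹ :=
        hcomm _ (hmem x b) _ (B.inv_mem a.2)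
      calc x * ((a : G) * b) * x⁻¹ * ((a : G) * b)⁻¹
          = x * a * x⁻¹ * ((x * b * x⁻¹ * (b : G)⁻¹) * (a : G)⁻¹) := by group
        _ = x * a * x⁻¹ * ((a : G)⁻¹ * (x * b * x⁻¹ * (b : G)⁻¹)) := by rw [h1.eq]
        _ = x * a * x⁻¹ * (a : G)⁻¹ * (x * b * x⁻¹ * (b : G)⁻¹) := by group)
    have hle : ∀ (x : G) (j : ℕ),
        (ψ (x ^ j)).range ≤ (ψ x).range ∧ (ψ x).ker ≤ (ψ (x ^ j)).ker := by
      intro x j
      induction j with
      | zero =>
        have h0 : ∀ a, ψ (x ^ 0) a = 1 := fun a => Subtype.ext (by simp [ψ])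
        exact ⟨fun y ⟨a, ha⟩ => by rw [← ha, h0]; exact one_mem _, fun a _ => h0 a⟩
      | succ j ih =>
        have hstep : ∀ a : B, ψ (x ^ (j + 1)) a =
            ψ x ⟨_, hB.conj_mem a a.2 (x ^ j)⟩ * ψ (x ^ j) a := by
          intro a
          refine Subtype.ext ?_
          simp only [ψ, MonoidHom.mk'_apply, Subgroup.coe_mul, pow_succ']
          group
        refine ⟨fun y ⟨a, ha⟩ => ?_, fun a ha => ?_⟩
        · rw [← ha, hstep]
          exact mul_mem ⟨_, rfl⟩ (ih.1 ⟨a, rfl⟩)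
        · have h2 : ψ (x ^ j) a = 1 := ih.2 ha
          have h3 : (⟨_, hB.conj_mem a a.2 (x ^ j)⟩ : B) = a := Subtype.ext (by
            have := congrArg Subtype.val h2
            simp only [ψ, MonoidHom.mk'_apply, OneMemClass.coe_one] at this
            exact mul_inv_eq_one.mp this)
          show ψ (x ^ (j + 1)) a = 1
          rw [hstep, h3, h2, show ψ x a = 1 from ha, one_mul]
    have hgk := hle g k
    have hgm := hle (g ^ k) m
    rw [hpow] at hgm
    have hrange : (ψ (g ^ k)).range = (ψ g).range := le_antisymm hgk.1 hgm.1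
    have hker : (ψ (g ^ k)).ker = (ψ g).ker := le_antisymm hgm.2 hgk.2
    have hfib : ∀ x : G, ∑ a : B, (χ : G → ℂ) (x * a * x⁻¹ * (a : G)⁻¹) =
        (Nat.card (ψ x).ker : ℂ) * ∑ y : (ψ x).range, (χ : G → ℂ) (y : B) := by
      intro x
      rw [Finset.mul_sum, ← Fintype.sum_fiberwise (fun a : B => (ψ x).rangeRestrict a)]
      refine Finset.sum_congr rfl fun y _ => ?_
      obtain ⟨a₀, ha₀⟩ := (ψ x).rangeRestrict_surjective y
      rw [Finset.sum_congr rfl fun (a : {a : B // (ψ x).rangeRestrict a = y}) _ => show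
        (χ : G → ℂ) (x * (a.1 : G) * x⁻¹ * (a.1 : G)⁻¹) = (χ : G → ℂ) ((y : B) : G) from
          congrArg (χ : G → ℂ) (by
            have := congrArg (fun t : (ψ x).range => ((t : B) : G)) a.2
            simpa [ψ] using this)]
      rw [Finset.sum_const, nsmul_eq_mul, Finset.card_univ, ← Nat.card_eq_fintype_card]
      congr 2
      refine Nat.card_congr ⟨fun a => ⟨a₀⁻¹ * a.1, ?_⟩, fun t => ⟨a₀ * t.1, ?_⟩, fun a => ?_,
        fun t => ?_⟩
      · rw [MonoidHom.mem_ker, ← MonoidHom.coe_rangeRestrict, map_mul, map_inv, ha₀, a.2,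
          inv_mul_cancel, Subgroup.coe_one]
      · have h1 : (ψ x).rangeRestrict t.1 = 1 := Subtype.ext t.2
        rw [map_mul, h1, ha₀, mul_one]
      · exact Subtype.ext (mul_inv_cancel_left _ _)
      · exact Subtype.ext (inv_mul_cancel_left _ _)
    rw [finsum_eq_sum_of_fintype, finsum_eq_sum_of_fintype, hfib, hfib, hker]
    congr 1
    exact Fintype.sum_equiv (MulEquiv.subgroupCongr hrange).toEquiv _ _ fun y => rfl
  refine le_antisymm ?_ hZF
  by_contra hFZ
  -- a class two subgroup over the centre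
  haveI hFnil : Group.IsNilpotent F := Cores.fittingSubgroup_isNilpotent
  let A : Subgroup G :=
    { carrier := {a | a ∈ F ∧ ∀ f ∈ F, a * f * a⁻¹ * f⁻¹ ∈ Z}
      one_mem' := ⟨F.one_mem, fun f _ => by simp⟩
      mul_mem' := fun {a b} ha hb => ⟨F.mul_mem ha.1 hb.1, fun f hf => by
        have h1 := hb.2 f hf
        have h2 := ha.2 f hf
        have h3 : a * b * f * (a * b)⁻¹ * f⁻¹ = a * (b * f * b⁻¹ * f⁻¹) * a⁻¹ * (a * f * a⁻¹ * f⁻¹) := by
          group
        rw [h3, Subgroup.mem_center_iff.mp h1 a, mul_inv_cancel_right]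
        exact Z.mul_mem h1 h2⟩
      inv_mem' := fun {a} ha => ⟨F.inv_mem ha.1, fun f hf => by
        have h1 : a * f * a⁻¹ * f⁻¹ ∈ Subgroup.center G := ha.2 f hf
        have h3 : a⁻¹ * f * a⁻¹⁻¹ * f⁻¹ = a⁻¹ * (a * f * a⁻¹ * f⁻¹)⁻¹ * a := by group
        rw [h3, Subgroup.mem_center_iff.mp (Subgroup.inv_mem _ h1) a⁻¹, inv_mul_cancel_right]
        exact Subgroup.inv_mem _ h1⟩ }
  haveI hAn : A.Normal := ⟨fun a ha g => by
    have hFn : F.Normal := inferInstance
    refine ⟨hFn.conj_mem a ha.1 g, fun f hf => ?_⟩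
    have h1 := ha.2 _ (by simpa using hFn.conj_mem f hf g⁻¹ : g⁻¹ * f * g ∈ F)
    have h3 : g * a * g⁻¹ * f * (g * a * g⁻¹)⁻¹ * f⁻¹ =
        g * (a * (g⁻¹ * f * g) * a⁻¹ * (g⁻¹ * f * g)⁻¹) * g⁻¹ := by group
    rw [h3, Subgroup.mem_center_iff.mp h1 g, mul_inv_cancel_right]
    exact h1⟩
  have hAZ : ¬ A ≤ Z := by
    intro hle
    haveI : (Z.subgroupOf F).Normal := Subgroup.normal_subgroupOf
    haveI : Group.IsNilpotent (F ⧸ Z.subgroupOf F) := inferInstance
    obtain ⟨f₁, hf₁, hf₁Z⟩ := SetLike.not_le_iff_exists.mp hFZ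
    haveI : Nontrivial (F ⧸ Z.subgroupOf F) :=
      ⟨⟨((⟨f₁, hf₁⟩ : F) : F ⧸ Z.subgroupOf F), 1, fun h =>
        hf₁Z ((QuotientGroup.eq_one_iff (⟨f₁, hf₁⟩ : F)).mp h)⟩⟩
    haveI : Nontrivial (Subgroup.center (F ⧸ Z.subgroupOf F)) :=
      (Subgroup.nontrivial_iff_ne_bot _).mpr (Group.IsNilpotent.center_ne_bot _)
    obtain ⟨⟨y, hy⟩, hy1⟩ := exists_ne (1 : Subgroup.center (F ⧸ Z.subgroupOf F))
    obtain ⟨a, rfl⟩ := QuotientGroup.mk_surjective y
    apply hy1
    refine Subtype.ext ((QuotientGroup.eq_one_iff a).mpr (hle ⟨a.2, fun f hf => ?_⟩))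
    have h1 := Subgroup.mem_center_iff.mp hy ((⟨f, hf⟩ : F) : F ⧸ Z.subgroupOf F)
    rw [← QuotientGroup.mk_mul, ← QuotientGroup.mk_mul, eq_comm, QuotientGroup.eq,
      Subgroup.mem_subgroupOf] at h1
    have h2 : (a : G) * f * ((a : G))⁻¹ * f⁻¹ = f * a * ((f : G) * a)⁻¹ * ((a : G) * f * ((f : G) * a)⁻¹) * (1 : G) := by
      group
    simp only [Subgroup.coe_mul, Subgroup.coe_inv] at h1
    have h4 := Subgroup.inv_mem _ ((Subgroup.Normal.conj_mem (inferInstance : Z.Normal) _ h1 ((a : G) * f)))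
    simpa [mul_assoc] using h4
  refine not_irr_mul_twist χ k hk A hfaith hAZ (fun g => ?_) hirr
  letI := Fintype.ofFinite A
  have hvan : ∀ a : A, (a : G) ∉ Z → (χ : G → ℂ) a = 0 := by
    intro a ha
    obtain ⟨b, hb, hab'⟩ : ∃ b ∈ A, (a : G) * b ≠ b * a := by
      by_contra hcon
      push Not at hcon
      apply ha
      let B : Subgroup G := A ⊓ Subgroup.centralizer (A : Set G)
      refine hab B inferInstance (fun x hx y hy => ?_) ⟨a.2, ?_⟩
      · exact (Subgroup.mem_centralizer_iff.mp hy.2 x hx.1)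
      · exact Subgroup.mem_centralizer_iff.mpr fun b hb => (hcon b hb).symm
    set w := b * a * b⁻¹ * (a : G)⁻¹ with hw
    have hwZ : w ∈ Subgroup.center G := hb.2 a a.2.1
    have hw1 : w ≠ 1 := fun h => hab' (mul_inv_eq_iff_eq_mul.mp (mul_inv_eq_one.mp h)).symm
    obtain ⟨ω, -, hω, hωx⟩ := irr_mul_center χ.2 hwZ
    have h1 : (χ : G → ℂ) a = ω * (χ : G → ℂ) a := by
      rw [← hωx]
      rw [show w * (a : G) = b * a * b⁻¹ by simp [hw]]
      exact (irr_isClassFunction χ.2 _ _).symm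
    have hω1 : ω ≠ 1 := fun h => hw1 (hfaith w (by rw [hω, h, one_mul]))
    by_contra h0
    exact hω1 (mul_right_cancel₀ h0 (by rw [one_mul]; exact h1.symm))
  have hmemA : ∀ (x : G) (a : A), x * a * x⁻¹ * (a : G)⁻¹ ∈ A := fun x a =>
    A.mul_mem (hAn.conj_mem a a.2 x) (A.inv_mem a.2)
  let W : G → Subgroup A := fun x =>
    { carrier := {a | x * a * x⁻¹ * (a : G)⁻¹ ∈ Z}
      one_mem' := by simp
      mul_mem' := fun {a b} ha hb => by
        show x * ((a : G) * b) * x⁻¹ * ((a : G) * b)⁻¹ ∈ Z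
        have h3 : x * ((a : G) * b) * x⁻¹ * ((a : G) * b)⁻¹ =
            x * a * x⁻¹ * (x * b * x⁻¹ * (b : G)⁻¹) * (a : G)⁻¹ := by group
        rw [h3, Subgroup.mem_center_iff.mp hb (x * a * x⁻¹), mul_assoc]
        exact Z.mul_mem hb ha
      inv_mem' := fun {a} ha => by
        show x * (a : G)⁻¹ * x⁻¹ * (a : G)⁻¹⁻¹ ∈ Z
        have ha' : x * a * x⁻¹ * (a : G)⁻¹ ∈ Subgroup.center G := ha
        have h3 : x * (a : G)⁻¹ * x⁻¹ * (a : G)⁻¹⁻¹ =
            (a : G)⁻¹ * (x * a * x⁻¹ * (a : G)⁻¹)⁻¹ * a := by group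
        rw [h3, Subgroup.mem_center_iff.mp (Subgroup.inv_mem _ ha') (a : G)⁻¹,
          inv_mul_cancel_right]
        exact Subgroup.inv_mem _ ha' }
  have hpw : ∀ (x : G) (a : A), a ∈ W x → ∀ j : ℕ,
      x ^ j * a * (x ^ j)⁻¹ * (a : G)⁻¹ = (x * a * x⁻¹ * (a : G)⁻¹) ^ j ∧
      x * ((a : G) ^ j) * x⁻¹ * ((a : G) ^ j)⁻¹ = (x * a * x⁻¹ * (a : G)⁻¹) ^ j := by
    intro x a ha j
    set w := x * a * x⁻¹ * (a : G)⁻¹ with hw
    have hwc : w ∈ Subgroup.center G := ha
    have hxa : x * a * x⁻¹ = w * a := by rw [hw]; group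
    have e1 : x ^ j * a * (x ^ j)⁻¹ = w ^ j * a := by
      induction j with
      | zero => simp
      | succ j ih =>
        have hc := Subgroup.mem_center_iff.mp (Subgroup.pow_mem _ hwc j) x
        rw [pow_succ' x]
        calc x * x ^ j * a * (x * x ^ j)⁻¹ = x * (x ^ j * a * (x ^ j)⁻¹) * x⁻¹ := by group
          _ = x * w ^ j * a * x⁻¹ := by rw [ih]; group
          _ = w ^ j * (x * a * x⁻¹) := by rw [hc]; group
          _ = w ^ (j + 1) * a := by rw [hxa, ← mul_assoc, ← pow_succ]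
    constructor
    · rw [e1, mul_inv_cancel_right]
    · rw [← conj_pow, hxa, (show Commute w (a : G) from (Subgroup.mem_center_iff.mp hwc a).symm).mul_pow,
        mul_inv_cancel_right]
  have hWeq : W (g ^ k) = W g := by
    refine le_antisymm (fun a ha => ?_) fun a ha => ?_
    · have h := (hpw (g ^ k) a ha m).1
      rw [hpow] at h
      show _ ∈ Z
      rw [h]
      exact Z.pow_mem ha m
    · show _ ∈ Z
      rw [(hpw g a ha k).1]
      exact Z.pow_mem ha k
  have hrest : ∀ x : G, ∑ a : A, (χ : G → ℂ) (x * a * x⁻¹ * (a : G)⁻¹) =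
      ∑ a : W x, (χ : G → ℂ) (x * (a : A) * x⁻¹ * ((a : A) : G)⁻¹) := by
    intro x
    rw [← Finset.sum_subtype (Finset.univ.filter (· ∈ W x)) (fun a => by simp)
      fun a : A => (χ : G → ℂ) (x * a * x⁻¹ * (a : G)⁻¹)]
    refine (Finset.sum_subset (Finset.subset_univ _) fun a _ ha => ?_).symm
    exact hvan ⟨_, hmemA x a⟩ (by simpa [W] using ha)
  rw [finsum_eq_sum_of_fintype, finsum_eq_sum_of_fintype, hrest, hrest]
  have hcopA : Nat.Coprime (Nat.card (W g)) k :=
    (hk.coprime_dvd_right ((Subgroup.card_subgroup_dvd_card (W g)).trans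
      (Subgroup.card_subgroup_dvd_card A))).symm
  refine Fintype.sum_equiv ((MulEquiv.subgroupCongr hWeq).toEquiv.trans (powCoprime hcopA)) _ _
    fun a => ?_
  have ha : (a : A) ∈ W g := hWeq ▸ a.2
  show (χ : G → ℂ) (g ^ k * ((a : A) : G) * (g ^ k)⁻¹ * ((a : A) : G)⁻¹) =
    (χ : G → ℂ) (g * ((a : A) : G) ^ k * g⁻¹ * (((a : A) : G) ^ k)⁻¹)
  rw [(hpw g (a : A) ha k).1, (hpw g (a : A) ha k).2]

end Cfsg.Agent.RealChar
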