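import Cfsg.Prelude.Def_Blocks
import Cfsg.Agent.RealChar.OddFixed
import Cfsg.Agent.Char.DefectZero
import Cfsg.Agent.CharDeep.Ratio

/-!
# Real characters with indicator one over a character of defect zero
-/

set_option autoImplicit false
set_option linter.style.haveILetI false

open scoped ComplexConjugate
open Cfsg Cfsg.Agent.Char

namespace Cfsg.Agent.RealChar

universe u

variable {G : Type u} [Group G]

theorem exists_fsNu_one_over [Finite G] (N : Subgroup G) [hN : N.Normal] [Fintype N]
    (h2 : IsPGroup 2 (G ⧸ N)) (φ : IrrCharacter N)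
    (hdef : 2 ^ (Nat.card N).factorization 2 ∣ Cfsg.charDegree (φ : N → ℂ))
    (hconj : ∃ g : G, ∀ n n' : N, (n' : G) = g * (n : G) * g⁻¹ →
      (φ : N → ℂ) n' = conj ((φ : N → ℂ) n)) :
    ∃ χ : IrrCharacter G, fsNu (χ : G → ℂ) = 1 ∧
      classInner (fun n : N => (χ : G → ℂ) n) (φ : N → ℂ) = 1 := by
  classical
  letI := Fintype.ofFinite G
  haveI : Fact (Nat.Prime 2) := ⟨Nat.prime_two⟩
  obtain ⟨g₀, hg₀⟩ := hconj
  obtain ⟨R⟩ : Nonempty (Sylow 2 G) := inferInstance
  letI := Fintype.ofFinite (R : Subgroup G)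
  set v := (Nat.card N).factorization 2 with hv
  obtain ⟨d, -, hd, hdN⟩ := irr_degree_dvd_card φ.2
  have hdeg : 2 ^ v ∣ d := by
    have : Cfsg.charDegree (φ : N → ℂ) = d := by
      rw [Cfsg.charDegree, hd]; simp
    rwa [this] at hdef
  have hNv : ¬ 2 ^ (v + 1) ∣ Nat.card N :=
    Nat.pow_succ_factorization_not_dvd Nat.card_pos.ne' Nat.prime_two
  have hconjR : ∀ (n : N) (r : G), r ∈ (R : Subgroup G) → r ≠ 1 → IsConj r (n : G) →
      (φ : N → ℂ) n = 0 := by
    intro n r hr hr1 hc
    obtain ⟨c, hc⟩ := isConj_iff.mp hc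
    refine irr_defect_zero_vanish' φ.2 Nat.prime_two hNv hd hdeg n ?_
    obtain ⟨k, hk⟩ := IsPGroup.iff_orderOf.mp R.isPGroup' ⟨_, hr⟩
    rw [Subgroup.orderOf_mk] at hk
    have ho : orderOf n = orderOf r := by
      rw [← Subgroup.orderOf_coe, ← hc]; exact (MulAut.conj c).orderOf_eq r
    rw [ho, hk]
    rcases Nat.eq_zero_or_pos k with rfl | hk0
    · exact absurd (orderOf_eq_one_iff.mp (by simpa using hk)) hr1
    · exact dvd_pow_self 2 hk0.ne'
  -- the multiplicities
  choose e he using fun χ : IrrCharacter G =>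
    isCharacter_classInner_nat (CharInd.isCharacter_res N (isCharacter_of_irr χ.2)) φ
  choose a ha using fun χ : IrrCharacter G =>
    isCharacter_classInner_nat
      (CharInd.isCharacter_res (R : Subgroup G) (isCharacter_of_irr χ.2))
      ⟨fun _ => (1 : ℂ), isIrrCharacter_const_one⟩
  -- the parity
  have hsum : ∀ r : (R : Subgroup G), ∑ χ : IrrCharacter G, (e χ : ℂ) * (χ : G → ℂ) r =
      if r = 1 then (Nat.card G : ℂ) / Nat.card N * d else 0 := by
    intro r
    have h1 : ∀ χ : IrrCharacter G, (e χ : ℂ) * (χ : G → ℂ) r = (Nat.card N : ℂ)⁻¹ *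
        ∑ n : N, (φ : N → ℂ) n * ((χ : G → ℂ) r * conj ((χ : G → ℂ) n)) := by
      intro χ
      rw [← Complex.conj_natCast (e χ), ← he χ, classInner, map_mul, map_inv₀, Complex.conj_natCast,
        map_sum, mul_assoc, Finset.sum_mul]
      congr 1
      refine Finset.sum_congr rfl fun n _ => ?_
      rw [map_mul, Complex.conj_conj]
      ring
    rw [Finset.sum_congr rfl fun χ _ => h1 χ, ← Finset.mul_sum, Finset.sum_comm]
    simp only [← Finset.mul_sum, sum_irr_mul_conj]
    by_cases hr : r = 1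
    · subst hr
      rw [if_pos rfl, Finset.sum_eq_single (1 : N)]
      · rw [if_pos (by simp), hd]
        have hC : Subgroup.centralizer ({(((1 : (R : Subgroup G))) : G)} : Set G) = ⊤ :=
          eq_top_iff.mpr fun x _ => Subgroup.mem_centralizer_iff.mpr fun y hy => by
            rw [Set.mem_singleton_iff] at hy
            simp [hy]
        rw [hC, Subgroup.card_top]
        ring
      · intro n _ hn
        rw [if_neg, mul_zero]
        intro hc
        apply hn
        rw [Subgroup.coe_one, isConj_one_right] at hc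
        exact Subtype.ext hc
      · simp
    · rw [if_neg hr, Finset.sum_eq_zero, mul_zero]
      intro n _
      split_ifs with hc
      · rw [hconjR n r r.2 (fun h => hr (Subtype.ext h)) hc, zero_mul]
      · rw [mul_zero]
  have hm : ∃ m : ℕ, ∑ χ : IrrCharacter G, e χ * a χ = m ∧ Odd m := by
    obtain ⟨l, hl⟩ := hdeg
    have hlodd : Odd l := by
      rw [← Nat.not_even_iff_odd, even_iff_two_dvd]
      intro h
      exact hNv ((pow_succ 2 v ▸ hl.symm ▸ Nat.mul_dvd_mul_left _ h).trans hdN)
    refine ⟨l, ?_, hlodd⟩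
    have hcR : Nat.card (R : Subgroup G) * Nat.card N = Nat.card G * 2 ^ v := by
      obtain ⟨k, hk⟩ := IsPGroup.iff_card.mp h2
      have hG : Nat.card G = 2 ^ k * Nat.card N := by
        rw [← hk]; exact Subgroup.card_eq_card_quotient_mul_card_subgroup N
      rw [R.card_eq_multiplicity, hG, Nat.factorization_mul (pow_ne_zero _ two_ne_zero)
        Nat.card_pos.ne', Finsupp.add_apply, Nat.prime_two.factorization_pow,
        Finsupp.single_eq_same, pow_add, ← hv]
      ring
    apply Nat.cast_injective (R := ℂ)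
    push_cast
    calc ∑ χ : IrrCharacter G, (e χ : ℂ) * a χ
        = (Nat.card (R : Subgroup G) : ℂ)⁻¹ *
            ∑ r : (R : Subgroup G), ∑ χ : IrrCharacter G, (e χ : ℂ) * (χ : G → ℂ) r := by
          rw [Finset.sum_comm, Finset.mul_sum]
          refine Finset.sum_congr rfl fun χ _ => ?_
          rw [← ha χ, classInner, Finset.mul_sum, Finset.mul_sum, Finset.mul_sum]
          refine Finset.sum_congr rfl fun r _ => ?_
          simp [mul_left_comm]
      _ = (Nat.card (R : Subgroup G) : ℂ)⁻¹ * ((Nat.card G : ℂ) / Nat.card N * d) := by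
          simp only [hsum, Finset.sum_ite_eq', Finset.mem_univ, if_true]
      _ = l := by
          have h3 : (Nat.card (R : Subgroup G) : ℂ) * Nat.card N =
              Nat.card G * 2 ^ v := by exact_mod_cast hcR
          have h4 : (Nat.card (R : Subgroup G) : ℂ) ≠ 0 :=
            Nat.cast_ne_zero.mpr Nat.card_pos.ne'
          have h5 : (Nat.card N : ℂ) ≠ 0 := Nat.cast_ne_zero.mpr Nat.card_pos.ne'
          rw [hl]
          push_cast
          field_simp
          linear_combination -(l : ℂ) * h3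
  -- complex conjugation
  let bar : IrrCharacter G → IrrCharacter G := fun χ =>
    ⟨fun g => conj ((χ : G → ℂ) g), isIrrCharacter_conjFun χ.2⟩
  have hbarbar : ∀ χ, bar (bar χ) = χ := fun χ =>
    Subtype.ext (funext fun g => Complex.conj_conj _)
  let cjN : N ≃ N := (MulAut.conjNormal g₀).toEquiv
  have hcjN : ∀ n, (cjN n : G) = g₀ * n * g₀⁻¹ := fun n => MulAut.conjNormal_apply g₀ n
  have hebar : ∀ χ, e (bar χ) = e χ := by
    intro χ
    apply Nat.cast_injective (R := ℂ)
    rw [← he, ← he, classInner, classInner]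
    congr 1
    calc ∑ n : N, conj ((χ : G → ℂ) n) * conj ((φ : N → ℂ) n)
        = ∑ n : N, conj ((χ : G → ℂ) (cjN n) * conj ((φ : N → ℂ) (cjN n))) := by
          refine Finset.sum_congr rfl fun n _ => ?_
          rw [hg₀ n (cjN n) (hcjN n), Complex.conj_conj, map_mul, hcjN, irr_isClassFunction χ.2]
      _ = conj (∑ n : N, (χ : G → ℂ) n * conj ((φ : N → ℂ) n)) := by
          rw [map_sum]
          exact Fintype.sum_equiv cjN _ _ fun n => rfl
      _ = _ := by
          have h1 := he χ
          rw [classInner, inv_mul_eq_iff_eq_mul₀ (Nat.cast_ne_zero.mpr Nat.card_pos.ne')] at h1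
          rw [h1, map_mul, Complex.conj_natCast, Complex.conj_natCast]
  have habar : ∀ χ, a (bar χ) = a χ := by
    intro χ
    apply Nat.cast_injective (R := ℂ)
    rw [← ha, ← Complex.conj_natCast (a χ), ← ha χ, classInner, classInner, map_mul, map_inv₀,
      Complex.conj_natCast, map_sum]
    congr 1
    refine Finset.sum_congr rfl fun r _ => ?_
    simp [bar]
  obtain ⟨m, hm, hmodd⟩ := hm
  have hex : ∃ χ, bar χ = χ ∧ Odd (e χ * a χ) := by
    by_contra! hcon
    apply Nat.not_even_iff_odd.mpr hmodd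
    rw [← hm, ← ZMod.natCast_eq_zero_iff_even, Nat.cast_sum]
    refine Finset.sum_involution (fun χ _ => bar χ) (fun χ _ => ?_) (fun χ _ hne => ?_)
      (fun χ _ => Finset.mem_univ _) (fun χ _ => hbarbar χ)
    · rw [hebar, habar]
      exact CharTwo.add_self_eq_zero _
    · intro hfix
      apply hne
      rw [ZMod.natCast_eq_zero_iff_even, ← Nat.not_odd_iff_even]
      exact hcon χ hfix
  obtain ⟨χ, hfix, hodd⟩ := hex
  obtain ⟨heodd, haodd⟩ := Nat.odd_mul.mp hodd
  refine ⟨χ, odd_fixed_fsNu_eq_one (R : Subgroup G) χ.2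
    (fun g => congrFun (congrArg Subtype.val hfix) g) (ha χ) haodd, ?_⟩
  rw [he χ]
  have he0 : classInner (fun n : N => (χ : G → ℂ) n) (φ : N → ℂ) ≠ 0 := by
    rw [he χ]; exact_mod_cast heodd.pos.ne'
  obtain ⟨c, -, hc, -⟩ := irr_degree_dvd_card χ.2
  obtain ⟨-, hdvd⟩ := CharDeep.degree_ratio_dvd_index N χ.2 φ.2 he0 hc hd
  have hcl := congrFun (CharInd.clifford N χ.2 φ.2 he0) 1
  obtain ⟨k, hk⟩ := IsPGroup.iff_card.mp h2
  rw [← Subgroup.index_eq_card] at hk
  have hc2 : c = e χ * (CharInd.conjClass N (φ : N → ℂ)).card * d := by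
    rw [Pi.smul_apply, Finset.sum_apply, he χ, OneMemClass.coe_one, hc,
      Finset.sum_congr rfl fun ψ hψ => (show ψ 1 = (d : ℂ) by
        obtain ⟨x, rfl⟩ := (CharInd.mem_conjClass N).mp hψ
        rw [CharInd.conjChar_apply, ← hd]
        exact congrArg _ (Subtype.ext (by simp))), Finset.sum_const, nsmul_eq_mul, smul_eq_mul, ← mul_assoc] at hcl
    exact_mod_cast hcl
  have hd0 : 0 < d := Nat.pos_of_ne_zero fun h0 => irr_one_ne_zero φ.2 (by rw [hd, h0, Nat.cast_zero])
  rw [hc2, Nat.mul_div_cancel _ hd0] at hdvd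
  have he1 : e χ = 1 := Nat.eq_one_of_dvd_coprimes
    ((Nat.coprime_two_left.mpr heodd).pow_left k) (hk ▸ (Dvd.intro _ rfl).trans hdvd) dvd_rfl
  rw [he1, Nat.cast_one]

end Cfsg.Agent.RealChar
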